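import Cfsg.Agent.H473.D4.BoxZ
import Cfsg.Agent.H170.HL.OmRows
import Cfsg.Agent.S0293

/-!
# S4311, the row `PΩ₈⁺(q)`: BOX N and the standing hypotheses `Q8` (helper473)
-/

set_option autoImplicit false
set_option linter.unusedSectionVars false

namespace Cfsg.Agent.H473.D4

open Module QuadraticMap Cfsg.Agent.H167.OP Cfsg.Agent.H170.HL Cfsg.Agent.H170.HL.OmRow Cfsg.Agent.H556.Om
open Cfsg Subgroup Cfsg.Agent.H485.RV Cfsg.Agent.H561.RV Cfsg.Agent.H561.D4
open Cfsg.Agent.LieClassical.OrthForms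

/-! ### numbers -/

theorem fact_two {N A q : ℕ} (hq : q % 2 = 1) (hA : A + 1 = q ^ 2) (hA0 : A ≠ 0)
    (hN : N * 2 = q ^ 12 * A * (A * (A + 2)) ^ 2 * (A * (A ^ 2 + 3 * A + 3))) :
    3 ≤ A.factorization 2 ∧ N.factorization 2 = 4 * A.factorization 2 + 1 := by
  have h8 : 8 ∣ A := by
    obtain ⟨t, rfl⟩ : ∃ t, q = 2 * t + 1 := ⟨q / 2, by omega⟩
    obtain ⟨s, hs⟩ : 2 ∣ t * (t + 1) := (Nat.even_mul_succ_self t).two_dvd
    refine ⟨s, ?_⟩
    have : (2 * t + 1) ^ 2 = 4 * (t * (t + 1)) + 1 := by ring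
    rw [this, hs] at hA
    omega
  obtain ⟨k, rfl⟩ := h8
  have hk : k ≠ 0 := by rintro rfl; exact hA0 rfl
  have p2 := Nat.prime_two
  have f2 : (2 : ℕ).factorization 2 = 1 := p2.factorization_self
  have hodd : ∀ n : ℕ, n % 2 = 1 → n.factorization 2 = 0 := fun n hn =>
    Nat.factorization_eq_zero_of_not_dvd (by omega)
  have h1 : (8 * k + 2).factorization 2 = 1 := by
    have : 8 * k + 2 = 2 * (4 * k + 1) := by ring
    rw [this, Nat.factorization_mul (by norm_num) (by omega), Finsupp.add_apply, f2, hodd _ (by omega)]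
  have h2 : ((8 * k) ^ 2 + 3 * (8 * k) + 3).factorization 2 = 0 := hodd _ (by
    have : (8 * k) ^ 2 + 3 * (8 * k) + 3 = 2 * (32 * (k * k) + 12 * k + 1) + 1 := by ring
    omega)
  have hqf : q.factorization 2 = 0 := hodd q hq
  have hq0 : q ≠ 0 := by rintro rfl; simp at hq
  have hN0 : N ≠ 0 := by
    rintro rfl
    rw [zero_mul] at hN
    have h3 : q ^ 12 * (8 * k) * (8 * k * (8 * k + 2)) ^ 2 * (8 * k * ((8 * k) ^ 2 + 3 * (8 * k) + 3)) ≠ 0 := by
      positivity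
    exact h3 hN.symm
  refine ⟨(p2.pow_dvd_iff_le_factorization hA0).1 ⟨k, by norm_num⟩, ?_⟩
  have h3 := congrArg (fun n => n.factorization 2) hN
  rw [Nat.factorization_mul hN0 (by norm_num), Nat.factorization_mul (by positivity) (by positivity),
    Nat.factorization_mul (by positivity) (by positivity), Nat.factorization_mul (by positivity) (by positivity),
    Nat.factorization_pow, Nat.factorization_pow, Nat.factorization_mul hA0 (by omega),
    Nat.factorization_mul hA0 (by positivity)] at h3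
  simp only [Finsupp.add_apply, Finsupp.smul_apply, smul_eq_mul] at h3
  rw [f2, h1, h2, hqf] at h3
  omega

theorem fact_three {N A q : ℕ} (hq : q % 3 ≠ 0) (hA : A + 1 = q ^ 2) (hA0 : A ≠ 0)
    (hN : N * 2 = q ^ 12 * A * (A * (A + 2)) ^ 2 * (A * (A ^ 2 + 3 * A + 3))) :
    1 ≤ A.factorization 3 ∧ N.factorization 3 = 4 * A.factorization 3 + 1 := by
  have h3A : 3 ∣ A := by
    have h1 : q % 3 = 1 ∨ q % 3 = 2 := by omega
    rcases h1 with h1 | h1
    · obtain ⟨t, rfl⟩ : ∃ t, q = 3 * t + 1 := ⟨q / 3, by omega⟩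
      refine ⟨3 * (t * t) + 2 * t, ?_⟩
      have : (3 * t + 1) ^ 2 = 3 * (3 * (t * t) + 2 * t) + 1 := by ring
      rw [this] at hA
      omega
    · obtain ⟨t, rfl⟩ : ∃ t, q = 3 * t + 2 := ⟨q / 3, by omega⟩
      refine ⟨3 * (t * t) + 4 * t + 1, ?_⟩
      have : (3 * t + 2) ^ 2 = 3 * (3 * (t * t) + 4 * t + 1) + 1 := by ring
      rw [this] at hA
      omega
  obtain ⟨k, rfl⟩ := h3A
  have hk : k ≠ 0 := by rintro rfl; exact hA0 rfl
  have p3 := Nat.prime_three
  have f3 : (3 : ℕ).factorization 3 = 1 := p3.factorization_self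
  have hnd : ∀ n : ℕ, n % 3 ≠ 0 → n.factorization 3 = 0 := fun n hn =>
    Nat.factorization_eq_zero_of_not_dvd (by omega)
  have f2 : (2 : ℕ).factorization 3 = 0 := hnd 2 (by norm_num)
  have h1 : (3 * k + 2).factorization 3 = 0 := hnd _ (by omega)
  have h2 : ((3 * k) ^ 2 + 3 * (3 * k) + 3).factorization 3 = 1 := by
    have : (3 * k) ^ 2 + 3 * (3 * k) + 3 = 3 * (3 * (k * k) + 3 * k + 1) := by ring
    rw [this, Nat.factorization_mul (by norm_num) (by omega), Finsupp.add_apply, f3, hnd _ (by omega)]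
  have hqf : q.factorization 3 = 0 := hnd q hq
  have hq0 : q ≠ 0 := by rintro rfl; simp at hq
  have hN0 : N ≠ 0 := by
    rintro rfl
    rw [zero_mul] at hN
    have h3 : q ^ 12 * (3 * k) * (3 * k * (3 * k + 2)) ^ 2 * (3 * k * ((3 * k) ^ 2 + 3 * (3 * k) + 3)) ≠ 0 := by
      positivity
    exact h3 hN.symm
  refine ⟨(p3.dvd_iff_one_le_factorization hA0).1 ⟨k, rfl⟩, ?_⟩
  have h3 := congrArg (fun n => n.factorization 3) hN
  rw [Nat.factorization_mul hN0 (by norm_num), Nat.factorization_mul (by positivity) (by positivity),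
    Nat.factorization_mul (by positivity) (by positivity), Nat.factorization_mul (by positivity) (by positivity),
    Nat.factorization_pow, Nat.factorization_pow, Nat.factorization_mul hA0 (by omega),
    Nat.factorization_mul hA0 (by positivity)] at h3
  simp only [Finsupp.add_apply, Finsupp.smul_apply, smul_eq_mul] at h3
  rw [f2, h1, h2, hqf] at h3
  omega

theorem nums {q : ℕ} (hq : 2 ≤ q) : ∃ A, A + 1 = q ^ 2 ∧ A ≠ 0 ∧ q ^ 2 - 1 = A ∧ q ^ 4 - 1 = A * (A + 2) ∧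
    q ^ 6 - 1 = A * (A ^ 2 + 3 * A + 3) := by
  have h1 : 4 ≤ q ^ 2 := by nlinarith
  refine ⟨q ^ 2 - 1, by omega, by omega, rfl, ?_, ?_⟩
  · obtain ⟨A, hA⟩ : ∃ A, q ^ 2 = A + 1 := ⟨q ^ 2 - 1, by omega⟩
    have h4 : q ^ 4 = A * (A + 2) + 1 := by
      have : q ^ 4 = (q ^ 2) ^ 2 := by ring
      rw [this, hA]
      ring
    rw [h4, hA]
    simp
  · obtain ⟨A, hA⟩ : ∃ A, q ^ 2 = A + 1 := ⟨q ^ 2 - 1, by omega⟩
    have h6 : q ^ 6 = A * (A ^ 2 + 3 * A + 3) + 1 := by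
      have : q ^ 6 = (q ^ 2) ^ 3 := by ring
      rw [this, hA]
      ring
    rw [h6, hA]
    simp

section
variable {F : Type} [Field F]

theorem card_mod [Finite F] (r : ℕ) (hr : r.Prime) (h : (r : F) ≠ 0) : ¬ r ∣ Nat.card F := by
  intro hd
  have := Fintype.ofFinite F
  rw [Nat.card_eq_fintype_card] at hd
  obtain ⟨p, hp, n, hpp, hn⟩ := FiniteField.card' F
  rw [hn] at hd
  have h1 : r = p := (Nat.prime_dvd_prime_iff_eq hr hpp).1 (hr.dvd_of_dvd_pow hd)
  subst h1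
  exact h (CharP.cast_eq_zero F r)

end

/-- **BOX N** -/
theorem boxN {F : Type} [Field F] [Finite F] {ι : Type} [Fintype ι] [DecidableEq ι] {Q : QuadraticForm F (ι → F)}
    (h : Q8 Q) : BoxN Q := by
  have h2 := card_mod 2 Nat.prime_two (by exact_mod_cast h.two : ((2 : ℕ) : F) ≠ 0)
  have h3 := card_mod 3 Nat.prime_three (by exact_mod_cast h.three : ((3 : ℕ) : F) ≠ 0)
  have hq : 2 ≤ Nat.card F := by
    have := Fintype.ofFinite F
    rw [Nat.card_eq_fintype_card]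
    exact Fintype.one_lt_card
  obtain ⟨A, hA, hA0, e2, e4, e6⟩ := nums hq
  have hc := h.card
  rw [e2, e4, e6] at hc
  obtain ⟨b1, b2⟩ := fact_two (by omega) hA hA0 hc
  obtain ⟨a1, a2⟩ := fact_three (by omega) hA hA0 hc
  refine ⟨_, _, a1, b1, b2, a2, ?_, ?_⟩
  · rw [e2]
    exact Nat.ordProj_dvd A 3
  · rw [e2]
    exact Nat.pow_succ_factorization_not_dvd hA0 Nat.prime_three

/-! ### the form of plus type -/

section plus

variable {F : Type} [Field F]

/-- coordinates of the frame -/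
def fx (a b : F) (c : A4) (i : Fin 2) : F :=
  (![![![1, 0], ![a, b]], ![![b, -a], ![0, 1]]] : Fin 2 → Fin 2 → Fin 2 → F) c.1 c.2 i
def fy (a b : F) (c : A4) (i : Fin 2) : F :=
  (![![![1, 0], ![-a, -b]], ![![-b, a], ![0, 1]]] : Fin 2 → Fin 2 → Fin 2 → F) c.1 c.2 i

/-- the frame -/
def FE (a b : F) (j : Fin 2 × A4) : Fin 4 ⊕ Fin 4 → F :=
  Sum.elim (fun i : Fin 4 => if i.val / 2 = j.1.val then fx a b j.2 ⟨i.val % 2, Nat.mod_lt _ (by norm_num)⟩ else 0)
    (fun i : Fin 4 => if i.val / 2 = j.1.val then fy a b j.2 ⟨i.val % 2, Nat.mod_lt _ (by norm_num)⟩ else 0)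

theorem a4_cases (c : A4) : c = (0, 0) ∨ c = (0, 1) ∨ c = (1, 0) ∨ c = (1, 1) := by
  revert c
  decide

theorem fxy {a b : F} (hab : a ^ 2 + b ^ 2 = -1) (c d : A4) :
    (fx a b c 0 * fy a b d 0 + fx a b d 0 * fy a b c 0) + (fx a b c 1 * fy a b d 1 + fx a b d 1 * fy a b c 1) =
      if c = d then 2 else 0 := by
  have x1 : fx a b (0, 0) 0 = 1 := rfl
  have x2 : fx a b (0, 0) 1 = 0 := rfl
  have x3 : fx a b (0, 1) 0 = a := rfl
  have x4 : fx a b (0, 1) 1 = b := rfl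
  have x5 : fx a b (1, 0) 0 = b := rfl
  have x6 : fx a b (1, 0) 1 = -a := rfl
  have x7 : fx a b (1, 1) 0 = 0 := rfl
  have x8 : fx a b (1, 1) 1 = 1 := rfl
  have y1 : fy a b (0, 0) 0 = 1 := rfl
  have y2 : fy a b (0, 0) 1 = 0 := rfl
  have y3 : fy a b (0, 1) 0 = -a := rfl
  have y4 : fy a b (0, 1) 1 = -b := rfl
  have y5 : fy a b (1, 0) 0 = -b := rfl
  have y6 : fy a b (1, 0) 1 = a := rfl
  have y7 : fy a b (1, 1) 0 = 0 := rfl
  have y8 : fy a b (1, 1) 1 = 1 := rfl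
  by_cases hcd : c = d
  · subst hcd
    rw [if_pos rfl]
    rcases a4_cases c with rfl | rfl | rfl | rfl
    · rw [x1, x2, y1, y2]; ring
    · rw [x3, x4, y3, y4]; linear_combination (-2) * hab
    · rw [x5, x6, y5, y6]; linear_combination (-2) * hab
    · rw [x7, x8, y7, y8]; ring
  · rw [if_neg hcd]
    rcases a4_cases c with rfl | rfl | rfl | rfl <;> rcases a4_cases d with rfl | rfl | rfl | rfl <;>
      first
        | exact absurd rfl hcd
        | (simp only [x1, x2, x3, x4, x5, x6, x7, x8, y1, y2, y3, y4, y5, y6, y7, y8]; ring)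

theorem frame_FE {a b : F} (hab : a ^ 2 + b ^ 2 = -1) : Frame (polarBilin (plusForm 4 F)) (FE a b) := by
  have key : ∀ j j' : Fin 2 × A4, polarBilin (plusForm 4 F) (FE a b j) (FE a b j') = if j = j' then 2 else 0 := by
    rintro ⟨k, c⟩ ⟨l, d⟩
    rw [polarBilin_apply_apply, polar_plusForm, Fin.sum_univ_four]
    have h1 := fxy hab c d
    have hk : k = 0 ∨ k = 1 := by omega
    have hl : l = 0 ∨ l = 1 := by omega
    rcases hk with rfl | rfl <;> rcases hl with rfl | rfl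
    · simp [FE]
      exact h1
    · simp [FE]
    · simp [FE]
    · simp [FE]
      exact h1
  exact ⟨fun j => by rw [key, if_pos rfl], fun j j' h => by rw [key, if_neg h]⟩

theorem exists_neg {ι : Type} [Fintype ι] [DecidableEq ι] {Q : QuadraticForm F (ι → F)} (h : Q7 Q)
    {E : Fin 2 × A4 → ι → F} (hF : Frame (polarBilin Q) E) : ∃ z : Cfsg.Omega F (⇑Q), rep (inc (⇑Q)) z = -1 := by
  have n1 : ((0, (0, 0)) : Fin 2 × A4) ≠ (0, (0, 1)) := by decide
  have n2 : ((0, (1, 0)) : Fin 2 × A4) ≠ (0, (1, 1)) := by decide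
  have n3 : ((1, (0, 0)) : Fin 2 × A4) ≠ (1, (0, 1)) := by decide
  have n4 : ((1, (1, 0)) : Fin 2 × A4) ≠ (1, (1, 1)) := by decide
  obtain ⟨x1, hx1⟩ := exists_sg h.gq h.two hF n1
  obtain ⟨x2, hx2⟩ := exists_sg h.gq h.two hF n2
  obtain ⟨x3, hx3⟩ := exists_sg h.gq h.two hF n3
  obtain ⟨x4, hx4⟩ := exists_sg h.gq h.two hF n4
  refine ⟨x1 * (x2 * (x3 * x4)), ?_⟩
  refine ext8 h hF fun j => ?_
  have e : ∀ (i k : Fin 2 × A4) (c : F), mono (polarBilin Q) E (H556.Om.sg F i k) id (c • E j) =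
      (if j = i ∨ j = k then -c else c) • E j := by
    intro i k c
    rw [map_smul, mono_e hF h.two, id, smul_smul]
    unfold H556.Om.sg
    split_ifs <;> simp
  rw [rep_mul, rep_mul, rep_mul, hx1, hx2, hx3, hx4]
  have e' := e
  rw [← one_smul F (E j), e, e, e, e, one_smul]
  have h8 : ∀ j : Fin 2 × A4, (j = (0, (0, 0)) ∨ j = (0, (0, 1))) ∨ (j = (0, (1, 0)) ∨ j = (0, (1, 1))) ∨
      (j = (1, (0, 0)) ∨ j = (1, (0, 1))) ∨ (j = (1, (1, 0)) ∨ j = (1, (1, 1))) := by decide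
  rw [LinearMap.neg_apply, Module.End.one_apply, ← neg_one_smul F (E j)]
  congr 1
  rcases h8 j with (rfl | rfl) | (rfl | rfl) | (rfl | rfl) | (rfl | rfl) <;>
    norm_num [Prod.mk.injEq]

theorem card_center {ι : Type} [Fintype ι] [DecidableEq ι] {Q : QuadraticForm F (ι → F)} (h : Q7 Q)
    {E : Fin 2 × A4 → ι → F} (hF : Frame (polarBilin Q) E) : Nat.card (Subgroup.center (Cfsg.Omega F (⇑Q))) = 2 := by
  obtain ⟨z, hz⟩ := exists_neg h hF
  have hzc : z ∈ Subgroup.center (Cfsg.Omega F (⇑Q)) := (mem_cen h z).2 (Or.inr hz)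
  rw [Nat.card_eq_two_iff]
  refine ⟨1, ⟨z, hzc⟩, ?_, ?_⟩
  · intro h1
    have h2 : (1 : Cfsg.Omega F (⇑Q)) = z := congrArg Subtype.val h1
    rw [← h2, map_one] at hz
    have h3 := congrArg (fun T : Module.End F (ι → F) => T (E (0, 0))) hz
    simp only [Module.End.one_apply, LinearMap.neg_apply] at h3
    have h4 := hF.self (0, 0)
    have h5 : (2 : F) = -2 := by
      calc (2 : F) = polarBilin Q (E (0, 0)) (E (0, 0)) := h4.symm
        _ = polarBilin Q (E (0, 0)) (-(E (0, 0))) := by rw [← h3]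
        _ = -2 := by rw [map_neg, h4]
    have h6 : (2 : F) * 2 = 0 := by linear_combination h5
    have := h.two
    simp [this] at h6
  · ext x
    refine ⟨fun _ => trivial, fun _ => ?_⟩
    rcases (mem_cen h (x : Cfsg.Omega F (⇑Q))).1 x.2 with h1 | h1
    · left
      exact Subtype.ext (rep_inj (by rw [h1]; exact (map_one _).symm))
    · right
      exact Subtype.ext (rep_inj (by rw [h1]; exact hz.symm))

variable [Fintype F]

theorem q7_plus (h2 : (2 : F) ≠ 0) : Q7 (plusForm 4 F) := ⟨h2, goodQ_plus (by norm_num), by simp⟩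

theorem exists_ab : ∃ a b : F, a ^ 2 + b ^ 2 = -1 := by
  obtain ⟨p, hp⟩ := CharP.exists F
  have hpp : p.Prime := by
    rcases CharP.char_is_prime_or_zero F p with h | h
    · exact h
    · subst h
      have : CharZero F := CharP.charP_to_charZero F
      exact absurd (inferInstance : Infinite F) (not_infinite_iff_finite.2 inferInstance)
  have : NeZero p := ⟨hpp.ne_zero⟩
  obtain ⟨a, b, hab⟩ := CharP.sq_add_sq F p (-1)
  exact ⟨a, b, by rw [hab]; norm_num⟩

theorem q8_plus (h2 : (2 : F) ≠ 0) (h3 : (3 : F) ≠ 0) : Q8 (plusForm 4 F) := by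
  obtain ⟨a, b, hab⟩ := exists_ab (F := F)
  have hF := frame_FE hab
  have h7 := q7_plus h2
  refine ⟨h2, h3, h7.gq, h7.dim, ⟨FE a b, hF⟩, ?_⟩
  intro _
  have hc := card_center h7 hF
  have h4 := Cfsg.Agent.S0293.result (F := F) rfl 4 (le_refl 4)
  rw [← Nat.card_eq_fintype_card] at h4
  set q := Nat.card F with hq
  have hodd : q % 2 = 1 := by
    have := card_mod 2 Nat.prime_two (by exact_mod_cast h2 : ((2 : ℕ) : F) ≠ 0)
    omega
  have hg : Nat.gcd 4 (q ^ 4 - 1) = 4 := by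
    refine Nat.gcd_eq_left ?_
    obtain ⟨t, ht⟩ : ∃ t, q = 2 * t + 1 := ⟨q / 2, by omega⟩
    refine ⟨4 * t ^ 4 + 8 * t ^ 3 + 6 * t ^ 2 + 2 * t, ?_⟩
    have : q ^ 4 = 4 * (4 * t ^ 4 + 8 * t ^ 3 + 6 * t ^ 2 + 2 * t) + 1 := by
      rw [ht]
      ring
    omega
  rw [hg, Finset.prod_range_succ, Finset.prod_range_succ, Finset.prod_range_succ, Finset.prod_range_zero] at h4
  norm_num at h4
  have h5 : Nat.card (Cfsg.Omega F (⇑(plusForm 4 F))) =
      Nat.card (Cfsg.POmega F (Cfsg.quadFormPlus 4 F)) * 2 := by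
    rw [← coe_plusForm, ← hc]
    exact Subgroup.card_eq_card_quotient_mul_card_subgroup _
  rw [h5]
  calc _ = 4 * Nat.card (Cfsg.POmega F (Cfsg.quadFormPlus 4 F)) := by ring
    _ = _ := by rw [h4]; ring

theorem boxN_plus (h2 : (2 : F) ≠ 0) (h3 : (3 : F) ≠ 0) : BoxN (plusForm 4 F) := boxN (q8_plus h2 h3)

end plus

end Cfsg.Agent.H473.D4
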